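import Cfsg.Agent.H970.CycOne
import Cfsg.Agent.H697.OneClass
import Cfsg.Agent.Prune
set_option linter.all false
prune_inst 0x7f00000000000000000000000000000000000000000000000000000000000000000000000000000000000000000000000000000000000000000000000000000000000000000000000000000000000000003fffffffffffffffffffffffffffbeffbdffffffff

/-!
# The row `RowCyc` of S4877 (helper970)
-/

set_option autoImplicit false

namespace Cfsg.Agent.H970.CycRow

universe u

theorem rowCyc (p : ℕ) [Fact p.Prime] : Cfsg.Agent.H697.OneClass.RowCyc.{u} p :=
  fun _ _ _ P hP hconj χ hχ => Cfsg.Agent.H970.CycOne.card_of_degree p P hP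
    (Cfsg.Agent.H970.CycOne.relIndex_eq p P hP hconj) χ hχ

end Cfsg.Agent.H970.CycRow
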